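import Mathlib
import Cfsg.Prelude.Def_Characters
import Cfsg.Agent.Eq.Def_Characters
import Cfsg.Agent.Chars.Basic.Orthogonality
import Cfsg.Agent.Chars.Basic.ClassSum
import Cfsg.Agent.Chars.Brauer.PiPart

/-!
Frobenius's divisibility for the number of elements with trivial `n`-part, from Brauer induction.
-/

set_option autoImplicit false

noncomputable section

namespace CfsgLib.Chars.Brauer

open Cfsg CfsgLib.Chars CfsgLib.Chars.Induced

universe u

variable {G : Type u} [Group G]

/-- The number of `x` whose `n`-part is conjugate to `g`, times `n`, is divisible by `|G|`. -/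
theorem card_dvd_mul_card_piSection [Finite G] {m n : ℕ} (h : Nat.Coprime m n)
    (hG : Nat.card G ∣ m * n) (g : G) :
    Nat.card G ∣ n * Nat.card {x : G // IsConj (x ^ piExp h) g} := by
  classical
  have := Fintype.ofFinite G
  obtain ⟨c, hc, heq⟩ := mem_intComb.mp (piSection_mem_intComb h hG g)
  refine dvd_of_isIntegral_div Nat.card_pos.ne' ?_
  have hcoef : classInner (fun x => if IsConj (x ^ piExp h) g then (n : ℂ) else 0)
      ((oneChar G : G → ℂ)) = c (oneChar G) := by
    rw [heq, classInner_sum_smul]
  have hval : classInner (fun x => if IsConj (x ^ piExp h) g then (n : ℂ) else 0)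
      ((oneChar G : G → ℂ))
      = ((n * Nat.card {x : G // IsConj (x ^ piExp h) g} : ℕ) : ℂ) / (Nat.card G : ℂ) := by
    simp only [classInner, oneChar_apply, map_one, mul_one, Finset.sum_ite, Finset.sum_const,
      nsmul_eq_mul, Finset.sum_const_zero, add_zero]
    rw [Nat.card_eq_fintype_card (α := {x : G // IsConj (x ^ piExp h) g}), Fintype.card_subtype]
    push_cast
    ring
  rw [← hval, hcoef]
  exact hc _

theorem card_dvd_mul_card_piPart_one [Finite G] {m n : ℕ} (h : Nat.Coprime m n)
    (hG : Nat.card G ∣ m * n) :
    Nat.card G ∣ n * Nat.card {x : G // x ^ piExp h = 1} := by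
  have he : Nat.card {x : G // x ^ piExp h = 1} = Nat.card {x : G // IsConj (x ^ piExp h) 1} :=
    Nat.card_congr (Equiv.subtypeEquivRight fun x => isConj_one_left.symm)
  rw [he]
  exact card_dvd_mul_card_piSection h hG 1

end CfsgLib.Chars.Brauer
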